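import Cfsg.Agent.H614.DefAlt
import Cfsg.Agent.SporadicRecognition.AltCover

/-!
# S4578: the centre of the defect groups of the 2-blocks of the double cover of `A_n` (helper852)
-/

set_option autoImplicit false

namespace Cfsg.Agent.H852.Spin

open Equiv Equiv.Perm Cfsg
open Cfsg.Agent.H614
open Cfsg.Agent.SporadicRecognition.AltCover Cfsg.Agent.CharactersDeep.DoubleCover

variable {n : ℕ}

theorem T_z {z : Perm (Fin n)} (hzz : ∀ a, z (z a) = a) (a : Fin n) (ha : z a ≠ a) :
    T (z a) (z (z a)) = zz n * T a (z a) := by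
  rw [hzz, T_symm (Ne.symm ha)]

theorem T_comm {z : Perm (Fin n)} (hzz : ∀ a, z (z a) = a) {a b : Fin n} (ha : z a ≠ a) (hb : z b ≠ b)
    (h1 : b ≠ a) (h2 : b ≠ z a) : T a (z a) * T b (z b) = zz n * (T b (z b) * T a (z a)) := by
  refine T_mul_T_disjoint (Ne.symm ha) (Ne.symm hb) (Ne.symm h1) ?_ (Ne.symm h2) ?_
  · intro h
    apply h2
    rw [h, hzz]
  · intro h
    exact h1 (z.injective h.symm)

theorem ne_zz_mul (x : cover n) : x ≠ zz n * x := fun h => zz_ne_one (mul_eq_right.1 h.symm)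

/-- an element commuting with the even part stabilises the cycles of `z` -/
theorem center_aux {z : Perm (Fin n)} (hzz : ∀ a, z (z a) = a) {ρ : Perm (Fin n)}
    (hρz : ∀ a, ρ (z a) = z (ρ a)) (hρf : ∀ a, z a = a → ρ a = a) (hs : Perm.sign ρ = 1)
    (hc : ∀ a b : Fin n, z a ≠ a → z b ≠ b → b ≠ a → b ≠ z a →
      T (ρ a) (z (ρ a)) * T (ρ b) (z (ρ b)) = T a (z a) * T b (z b)) {a : Fin n} (ha : z a ≠ a) :
    ρ a = a ∨ ρ a = z a := by
  by_contra hcon
  push Not at hcon
  obtain ⟨h1, h2⟩ := hcon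
  have hm : ∀ c, z c ≠ c → z (ρ c) ≠ ρ c := fun c hc' h => hc' (ρ.injective (by rw [hρz, h]))
  obtain ⟨b, hb⟩ : ∃ b, ρ a = b := ⟨_, rfl⟩
  have hbm : z b ≠ b := hb ▸ hm a ha
  rw [hb] at h1 h2
  -- `ρ b = z a`
  have h3 := hc a b ha hbm h1 h2
  rw [hb, T_comm hzz ha hbm h1 h2, ← mul_assoc, ← zz_comm, mul_assoc] at h3
  have h4 : T (ρ b) (z (ρ b)) = zz n * T a (z a) := mul_left_cancel h3
  have hρb : ρ b = z a := by
    have h5 := congrArg (fun x => proj n x a) h4
    simp only [map_mul, proj_zz, one_mul, proj_T (Ne.symm ha), proj_T (Ne.symm (hm b hbm)),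
      swap_apply_left] at h5
    by_cases h6 : a = ρ b
    · exfalso
      rw [← h6] at h4
      exact ne_zz_mul _ h4
    by_cases h7 : a = z (ρ b)
    · rw [h7, hzz]
    · rw [swap_apply_of_ne_of_ne h6 h7] at h5
      exact absurd h5.symm ha
  have hzb1 : z b ≠ a := fun h => h2 (by rw [← h, hzz])
  have hzb2 : z b ≠ z a := fun h => h1 (z.injective h)
  -- there are only two cycles
  have hall : ∀ c, z c ≠ c → c = a ∨ c = z a ∨ c = b ∨ c = z b := by
    intro c hcm
    by_contra hcc
    push Not at hcc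
    obtain ⟨c1, c2, c3, c4⟩ := hcc
    have h5 := hc a c ha hcm c1 c2
    have h6 := congrArg (fun x => proj n x b) h5
    simp only [map_mul, proj_T (Ne.symm ha), proj_T (Ne.symm hcm), proj_T (Ne.symm (hm a ha)),
      proj_T (Ne.symm (hm c hcm)), Perm.mul_apply] at h6
    have h7 : swap (ρ c) (z (ρ c)) b = b := by
      refine swap_apply_of_ne_of_ne (fun h => ?_) (fun h => ?_)
      · apply c1
        apply ρ.injective
        rw [← h, hb]
      · apply c2
        apply ρ.injective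
        rw [hρz, hb, h, hzz]
    rw [swap_apply_of_ne_of_ne (Ne.symm c3) (fun h => c4 (by rw [h, hzz])),
      swap_apply_of_ne_of_ne h1 h2, h7, hb, swap_apply_left] at h6
    exact hbm h6
  have hρ : ρ = swap a (z a) * (swap a b * swap (z a) (z b)) := by
    ext x
    congr 1
    rw [Perm.mul_apply, Perm.mul_apply]
    by_cases hx : z x = x
    · have e1 : x ≠ a := fun h => ha (h ▸ hx)
      have e2 : x ≠ z a := fun h => ha (z.injective (h ▸ hx))
      have e3 : x ≠ b := fun h => hbm (h ▸ hx)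
      have e4 : x ≠ z b := fun h => hbm (z.injective (h ▸ hx))
      rw [hρf x hx, swap_apply_of_ne_of_ne e2 e4, swap_apply_of_ne_of_ne e1 e3, swap_apply_of_ne_of_ne e1 e2]
    · rcases hall x hx with rfl | rfl | rfl | rfl
      · rw [swap_apply_of_ne_of_ne (Ne.symm ha) (Ne.symm hzb1), swap_apply_left,
          swap_apply_of_ne_of_ne h1 h2, hb]
      · rw [swap_apply_left, swap_apply_of_ne_of_ne hzb1 hbm, swap_apply_of_ne_of_ne hzb1 hzb2, hρz, hb]
      · rw [swap_apply_of_ne_of_ne h2 (Ne.symm hbm), swap_apply_right, swap_apply_left, hρb]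
      · rw [swap_apply_right, swap_apply_of_ne_of_ne ha (Ne.symm h2), swap_apply_right, hρz, hρb, hzz]
  rw [hρ, map_mul, map_mul, sign_swap (Ne.symm ha), sign_swap (Ne.symm h1), sign_swap (Ne.symm hzb2)] at hs
  exact absurd hs (by decide)

theorem center_perm {z : Perm (Fin n)} (hzz : ∀ a, z (z a) = a) {ρ : Perm (Fin n)}
    (hρz : ∀ a, ρ (z a) = z (ρ a)) (hρf : ∀ a, z a = a → ρ a = a) (hs : Perm.sign ρ = 1)
    (hc : ∀ a b : Fin n, z a ≠ a → z b ≠ b → b ≠ a → b ≠ z a →
      T (ρ a) (z (ρ a)) * T (ρ b) (z (ρ b)) = T a (z a) * T b (z b)) : ρ = 1 ∨ ρ = z := by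
  by_cases h1 : ∀ a, ρ a = a
  · left
    ext a
    rw [h1]
    rfl
  · right
    push Not at h1
    obtain ⟨a, ha⟩ := h1
    have ham : z a ≠ a := fun h => ha (hρf a h)
    have hra : ρ a = z a := (center_aux hzz hρz hρf hs hc ham).resolve_left ha
    ext b
    congr 1
    by_cases hb : z b = b
    · rw [hρf b hb, hb]
    by_cases h2 : b = a
    · rw [h2, hra]
    by_cases h3 : b = z a
    · rw [h3, hρz, hra]
    · refine (center_aux hzz hρz hρf hs hc hb).resolve_left fun h4 => ?_
      have h5 := hc a b ham hb h2 h3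
      rw [hra, h4, T_z hzz a ham] at h5
      exact ne_zz_mul _ (mul_right_cancel h5).symm

/-- the lift of the product of two swaps exchanging two cycles anticommutes with the lift of `z` -/
theorem swap_pair {z : Perm (Fin n)} (hzz : ∀ a, z (z a) = a) {x : cover n} (hx : proj n x = z)
    (hs : Perm.sign z = 1) {a b : Fin n} (hb : z b ≠ b) (h1 : b ≠ a) (h2 : b ≠ z a) (ha : z a ≠ a) :
    x * (T a b * T (z a) (z b)) ≠ T a b * T (z a) (z b) * x := by
  intro h
  have hzab : z a ≠ z b := fun h => h1 (z.injective h).symm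
  have h3 : x * T a b * x⁻¹ = T (z a) (z b) := by
    rw [conj_T_even (by rw [hx, hs]) (Ne.symm h1), hx]
  have h4 : x * T (z a) (z b) * x⁻¹ = T a b := by
    rw [conj_T_even (by rw [hx, hs]) hzab, hx, hzz, hzz]
  have h5 : T (z a) (z b) * T a b = T a b * T (z a) (z b) := by
    calc T (z a) (z b) * T a b = x * T a b * x⁻¹ * (x * T (z a) (z b) * x⁻¹) := by rw [h3, h4]
      _ = x * (T a b * T (z a) (z b)) * x⁻¹ := by group
      _ = T a b * T (z a) (z b) := by rw [h]; group
  rw [T_mul_T_disjoint (Ne.symm h1) hzab (Ne.symm ha) (fun h => h2 (by rw [h, hzz])) h2 (Ne.symm hb)] at h5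
  exact ne_zz_mul _ h5

theorem exists_pair {z : Perm (Fin n)} {w : ℕ} (hz : z.cycleType = Multiset.replicate w 2) (hw : 2 ≤ w)
    {P : Subgroup (Perm (Fin n))} (h2 : P ≤ supS z)
    (h3 : Nat.card P = 2 ^ (w + padicValNat 2 w.factorial)) :
    ∃ a b, z a ≠ a ∧ z b ≠ b ∧ b ≠ a ∧ b ≠ z a ∧ swap a b * swap (z a) (z b) ∈ P := by
  have hp2 : Fact (Nat.Prime 2) := ⟨Nat.prime_two⟩
  have hzp : z ^ 2 = 1 := pow_eq_one_of_cycleType hz
  have hzz : ∀ a, z (z a) = a := fun a => by
    have := congrArg (fun g : Perm (Fin n) => g a) hzp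
    rwa [pow_two] at this
  -- two cycles
  have hcard : z.support.card = w * 2 := by
    rw [← sum_cycleType, hz, Multiset.sum_replicate, smul_eq_mul]
  obtain ⟨a, ha⟩ : z.support.Nonempty := by
    rw [← Finset.card_pos, hcard]
    omega
  obtain ⟨b, hb, hb'⟩ := Finset.exists_mem_notMem_of_card_lt_card (s := {a, z a}) (t := z.support)
    (by
      have := Finset.card_le_two (a := a) (b := z a)
      omega)
  rw [mem_support] at ha hb
  simp only [Finset.mem_insert, Finset.mem_singleton, not_or] at hb'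
  -- the element `s`
  set s : Perm (Fin n) := swap a b * swap (z a) (z b) with hs
  have hsz : s * z = z * s := by
    have h5 : z * s * z⁻¹ = s := by
      have e1 : z * (swap a b * swap (z a) (z b)) * z⁻¹ = z * swap a b * z⁻¹ * (z * swap (z a) (z b) * z⁻¹) := by
        group
      rw [hs, e1, ← swap_apply_apply, ← swap_apply_apply, hzz, hzz]
      -- the two swaps commute
      refine (Disjoint.commute ?_).eq
      intro x
      by_cases hx : x = z a ∨ x = z b
      · right
        refine swap_apply_of_ne_of_ne ?_ ?_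
        · rcases hx with rfl | rfl
          · exact ha
          · intro h; apply hb'.2; rw [← h, hzz]
        · rcases hx with rfl | rfl
          · exact fun h => hb'.2 h.symm
          · exact hb
      · push Not at hx
        left
        exact swap_apply_of_ne_of_ne hx.1 hx.2
    rw [mul_inv_eq_iff_eq_mul] at h5
    exact h5.symm
  have hss : s ∈ supS z := by
    refine mem_supS.2 ⟨hsz, fun x hx => ?_⟩
    have e1 : x ≠ a := fun h => ha (h ▸ hx)
    have e2 : x ≠ z a := fun h => ha (z.injective (h ▸ hx))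
    have e3 : x ≠ b := fun h => hb (h ▸ hx)
    have e4 : x ≠ z b := fun h => hb (z.injective (h ▸ hx))
    rw [hs, Perm.mul_apply, swap_apply_of_ne_of_ne e2 e4, swap_apply_of_ne_of_ne e1 e3]
  have hs2 : s * s = 1 := by
    have e1 : z * s * z⁻¹ = s := by rw [← hsz, mul_inv_cancel_right]
    have e2 : z * s * z⁻¹ = swap (z a) (z b) * swap a b := by
      have e1 : z * (swap a b * swap (z a) (z b)) * z⁻¹ = z * swap a b * z⁻¹ * (z * swap (z a) (z b) * z⁻¹) := by
        group
      rw [hs, e1, ← swap_apply_apply, ← swap_apply_apply, hzz, hzz]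
    rw [e1] at e2
    calc s * s = swap a b * swap (z a) (z b) * (swap (z a) (z b) * swap a b) := by rw [← e2, ← hs]
      _ = swap a b * (swap (z a) (z b) * swap (z a) (z b)) * swap a b := by group
      _ = 1 := by rw [swap_mul_self, mul_one, swap_mul_self]
  -- a Sylow subgroup containing it
  have hcard : Nat.card (P.subgroupOf (supS z)) = 2 ^ (Nat.card (supS z)).factorization 2 := by
    rw [Nat.card_congr (Subgroup.subgroupOfEquivOfLe h2).toEquiv, h3, factorization_supS hz]
  let S : Sylow 2 (supS z) := Sylow.ofCard _ hcard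
  have hQ : IsPGroup 2 (Subgroup.zpowers (⟨s, hss⟩ : supS z)) := by
    rintro ⟨y, k, rfl⟩
    refine ⟨1, Subtype.ext ?_⟩
    have e1 : (⟨s, hss⟩ : supS z) * ⟨s, hss⟩ = 1 := Subtype.ext hs2
    change ((⟨s, hss⟩ : supS z) ^ k) ^ (2 ^ 1) = 1
    rw [pow_one, pow_two, ← zpow_add, ← two_mul, zpow_mul, zpow_ofNat, pow_two, e1, one_zpow]
  obtain ⟨R, hR⟩ := hQ.exists_le_sylow
  obtain ⟨h, hh⟩ := MulAction.exists_smul_eq (supS z) R S
  have h4 : h * ⟨s, hss⟩ * h⁻¹ ∈ (S : Subgroup (supS z)) := by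
    rw [← hh]
    exact ⟨⟨s, hss⟩, hR (Subgroup.mem_zpowers _), rfl⟩
  have h5 : (h : Perm (Fin n)) * s * (h : Perm (Fin n))⁻¹ ∈ P := h4
  have hhz : ∀ x, (h : Perm (Fin n)) (z x) = z ((h : Perm (Fin n)) x) := fun x =>
    congrArg (fun g : Perm (Fin n) => g x) (mem_supS.1 h.2).1
  have e1 : (h : Perm (Fin n)) * s * (h : Perm (Fin n))⁻¹ =
      swap ((h : Perm (Fin n)) a) ((h : Perm (Fin n)) b) *
        swap (z ((h : Perm (Fin n)) a)) (z ((h : Perm (Fin n)) b)) := by
    rw [← hhz, ← hhz, swap_apply_apply, swap_apply_apply, hs]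
    group
  rw [e1] at h5
  have hinj := (h : Perm (Fin n)).injective
  refine ⟨(h : Perm (Fin n)) a, (h : Perm (Fin n)) b, ?_, ?_, ?_, ?_, h5⟩
  · rw [← hhz]; exact fun h => ha (hinj h)
  · rw [← hhz]; exact fun h => hb (hinj h)
  · exact fun h => hb'.1 (hinj h)
  · rw [← hhz]; exact fun h => hb'.2 (hinj h)

/-- **The centre.** -/
theorem center_two {z : Perm (Fin n)} {w : ℕ} (hz : z.cycleType = Multiset.replicate w 2) (hw : 2 ≤ w)
    {P : Subgroup (Perm (Fin n))} (h1 : cyc z ≤ P) (h2 : P ≤ supS z)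
    (h3 : Nat.card P = 2 ^ (w + padicValNat 2 w.factorial)) {x : cover n}
    (hx : proj n x ∈ P ⊓ alternatingGroup (Fin n))
    (hc : ∀ y : cover n, proj n y ∈ P ⊓ alternatingGroup (Fin n) → x * y = y * x) : x = 1 ∨ x = zz n := by
  have hzp : z ^ 2 = 1 := pow_eq_one_of_cycleType hz
  have hzz : ∀ a, z (z a) = a := fun a => by
    have := congrArg (fun g : Perm (Fin n) => g a) hzp
    rwa [pow_two] at this
  have hxs := mem_supS.1 (h2 hx.1)
  have hxz : ∀ a, proj n x (z a) = z (proj n x a) := fun a =>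
    congrArg (fun g : Perm (Fin n) => g a) hxs.1
  have hsx : Perm.sign (proj n x) = 1 := Perm.mem_alternatingGroup.1 hx.2
  -- the transpositions lie in `P`
  have ht : ∀ a, z a ≠ a → swap a (z a) ∈ P := by
    intro a ha
    apply h1
    refine mem_cyc.2 ⟨?_, fun y => ?_⟩
    · have e1 : z * swap a (z a) * z⁻¹ = swap a (z a) := by rw [← swap_apply_apply, hzz, swap_comm]
      rw [mul_inv_eq_iff_eq_mul] at e1
      exact e1.symm
    · by_cases hy : y = a
      · rw [hy, swap_apply_left]; exact ⟨1, by rw [zpow_one]⟩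
      by_cases hy2 : y = z a
      · rw [hy2, swap_apply_right]; exact ⟨1, by rw [zpow_one, hzz]⟩
      · rw [swap_apply_of_ne_of_ne hy hy2]
  have hcom : ∀ a b : Fin n, z a ≠ a → z b ≠ b → b ≠ a → b ≠ z a →
      T (proj n x a) (z (proj n x a)) * T (proj n x b) (z (proj n x b)) = T a (z a) * T b (z b) := by
    intro a b ha hb _ _
    have h4 := hc (T a (z a) * T b (z b)) (by
      rw [map_mul, proj_T (Ne.symm ha), proj_T (Ne.symm hb)]
      refine ⟨P.mul_mem (ht a ha) (ht b hb), Perm.mem_alternatingGroup.2 ?_⟩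
      rw [map_mul, sign_swap (Ne.symm ha), sign_swap (Ne.symm hb)]
      rfl)
    rw [← hxz, ← hxz, ← conj_T_even hsx (Ne.symm ha), ← conj_T_even hsx (Ne.symm hb)]
    calc x * T a (z a) * x⁻¹ * (x * T b (z b) * x⁻¹) = x * (T a (z a) * T b (z b)) * x⁻¹ := by group
      _ = _ := by rw [h4]; group
  rcases center_perm hzz hxz hxs.2 hsx hcom with h | h
  · exact eq_one_or_eq_zz_of_proj_eq_one h
  · exfalso
    obtain ⟨a, b, ha, hb, hab, hab', hs⟩ := exists_pair hz hw h2 h3
    have hzab : z a ≠ z b := fun h => hab (z.injective h).symm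
    refine swap_pair hzz h (h ▸ hsx) hb hab hab' ha (hc _ ?_)
    rw [map_mul, proj_T (Ne.symm hab), proj_T hzab]
    refine ⟨hs, Perm.mem_alternatingGroup.2 ?_⟩
    rw [map_mul, sign_swap (Ne.symm hab), sign_swap hzab]
    rfl

end Cfsg.Agent.H852.Spin
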