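import Cfsg.Agent.H852.Spin.Center
import Cfsg.Agent.H614.AltBlk
import Cfsg.Agent.H649.Transport
import Cfsg.Agent.H657.BrauerFeit
import Cfsg.Agent.S4434

/-!
# S4578: the 2-blocks of the double cover of `A_n` (helper852)
-/

set_option autoImplicit false

namespace Cfsg.Agent.H852.Spin

open Cfsg Cfsg.Agent.H614
open Cfsg.Agent.SporadicRecognition.AltCover Cfsg.Agent.CharactersDeep.DoubleCover

section card

/-- small defect -/
theorem concl_small {H : Type*} [Group H] [Finite H] {M : Ideal AlgInt} (hM : IsPModular 2 M)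
    {B : Set (IrrCharacter H)} (hB : IsPBlock M B) {D : Subgroup H} (hD : IsDefectGroup 2 M B D) {d : ℕ}
    (hd : Nat.card D = 2 ^ d) (hd2 : d ≤ 2) {χ : IrrCharacter H} (hχ : χ ∈ B) :
    blockHeight 2 B (χ : H → ℂ) ≤ ((Subgroup.center D).index).factorization 2 ∧
      (blockHeight 2 B (χ : H → ℂ) = ((Subgroup.center D).index).factorization 2 ↔
        IsMulCommutative D) := by
  have hp2 : Fact (Nat.Prime 2) := ⟨Nat.prime_two⟩
  have := Fintype.ofFinite H
  have h1 := height_zero_of_card hM hB hD hd hd2 hχ
  have h2 := isMulCommutative_of_card hd hd2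
  have h3 : Subgroup.center D = ⊤ := by
    rw [eq_top_iff]
    intro x _
    rw [Subgroup.mem_center_iff]
    intro y
    exact h2.1.1 y x
  rw [h1, h3, Subgroup.index_top, Nat.factorization_one]
  exact ⟨le_rfl, ⟨fun _ => h2, fun _ => rfl⟩⟩

/-- centre of order two -/
theorem concl_center {H : Type*} [Group H] [Finite H] {M : Ideal AlgInt} (hM : IsPModular 2 M)
    {B : Set (IrrCharacter H)} (hB : IsPBlock M B) {D : Subgroup H} (hD : IsDefectGroup 2 M B D) {d : ℕ}
    (hd : Nat.card D = 2 ^ d) (hd2 : 2 ≤ d) (hc : Nat.card (Subgroup.center D) = 2)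
    {χ : IrrCharacter H} (hχ : χ ∈ B) :
    blockHeight 2 B (χ : H → ℂ) ≤ ((Subgroup.center D).index).factorization 2 ∧
      (blockHeight 2 B (χ : H → ℂ) = ((Subgroup.center D).index).factorization 2 ↔
        IsMulCommutative D) := by
  have hp2 : Fact (Nat.Prime 2) := ⟨Nat.prime_two⟩
  have := Fintype.ofFinite H
  have h1 := S0908.result 2 M hM B hB D hD
  rw [hd] at h1
  have h2 : d = blockDefect 2 B := Nat.pow_right_injective le_rfl h1
  have h3 : (Subgroup.center D).index = 2 ^ (d - 1) := by
    have h4 := (Subgroup.center D).card_mul_index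
    rw [hc, hd] at h4
    obtain ⟨e, rfl⟩ : ∃ e, d = e + 1 := ⟨d - 1, by omega⟩
    rw [pow_succ'] at h4
    rw [Nat.add_sub_cancel]
    omega
  have h4 : ((Subgroup.center D).index).factorization 2 = d - 1 := by
    rw [h3, Nat.factorization_pow, Finsupp.smul_apply, Nat.prime_two.factorization_self, smul_eq_mul, mul_one]
  have h5 : blockHeight 2 B (χ : H → ℂ) < d - 1 := by
    rcases Nat.eq_zero_or_pos (blockHeight 2 B (χ : H → ℂ)) with h | h
    · omega
    · have := H657.BrauerFeit.height_add_two_le hM hB hχ h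
      omega
  rw [h4]
  refine ⟨h5.le, ⟨fun h => absurd h h5.ne, fun h => ?_⟩⟩
  exfalso
  have h6 : Subgroup.center D = ⊤ := by
    rw [eq_top_iff]
    intro x _
    rw [Subgroup.mem_center_iff]
    intro y
    exact h.1.1 y x
  rw [h6, Subgroup.card_top, hd] at hc
  have : 2 ^ 2 ≤ 2 ^ d := Nat.pow_le_pow_right (by norm_num) hd2
  omega

end card

/-- **Double covers of alternating groups, `p = 2`.** -/
theorem cover_two {n : ℕ} (hn : 5 ≤ n) {H : Type*} [Group H] [Finite H]
    {π : H →* alternatingGroup (Fin n)} {z : H} (h : IsCover π z)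
    (M : Ideal AlgInt) (hM : IsPModular 2 M) (B : Set (IrrCharacter H)) (hB : IsPBlock M B)
    (D : Subgroup H) (hD : IsDefectGroup 2 M B D) (χ : IrrCharacter H) (hχ : χ ∈ B) :
    blockHeight 2 B (χ : H → ℂ) ≤ ((Subgroup.center D).index).factorization 2 ∧
      (blockHeight 2 B (χ : H → ℂ) = ((Subgroup.center D).index).factorization 2 ↔
        IsMulCommutative D) := by
  classical
  have hp2 : Fact (Nat.Prime 2) := ⟨Nat.prime_two⟩
  have : Nontrivial (Fin n) := Fin.nontrivial_iff_two_le.2 (by omega)
  have hMp : M.IsPrime := hM.2.1.isPrime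
  -- the kernel
  have hker : IsPGroup 2 π.ker := by
    rintro ⟨x, hx⟩
    refine ⟨1, Subtype.ext ?_⟩
    change x ^ (2 ^ 1) = 1
    rw [pow_one, pow_two]
    rcases (h.ker x).1 hx with rfl | rfl
    · rw [one_mul]
    · exact h.z_mul
  have hkerD : π.ker ≤ D := (Cfsg.Agent.Lib.Cores.le_pCore inferInstance hker).trans (S0912.result 2 M hM B hB D hD)
  have hzD : z ∈ D := hkerD h.map_z
  -- the dominated block
  obtain ⟨Bb, hBb, -, hiff⟩ := S4434.result 2 M hM π.ker hker B hB
  have hDb := (hiff _).2 ⟨D, hD, rfl⟩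
  set f : H ⧸ π.ker ≃* alternatingGroup (Fin n) := QuotientGroup.quotientKerEquivOfSurjective π h.surj with hf
  have hB' := H649.isPBlock_blkMap (e := f) hBb
  have hD' := H649.isDefectGroup_blkMap (e := f) hDb
  have hDmap : (D.map (QuotientGroup.mk' π.ker)).map f.toMonoidHom = D.map π := by
    rw [Subgroup.map_map]
    congr 1
  rw [hDmap] at hD'
  -- the block of the symmetric group
  obtain ⟨BB, P, hBB, hP, hDP, -, -⟩ := exists_cover hM (alternatingGroup (Fin n)) hB' hD'
  obtain ⟨ψ, hψ⟩ := Blocks.Basic.isPBlock_nonempty hBB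
  obtain ⟨β, hβ, hs, hψβ⟩ := irr_eq (α := Fin n) (m := Fintype.card (Fin n)) le_rfl ψ.2
  obtain ⟨w, hw⟩ : ∃ w, ∑ j, β j / 2 = w + npairs 2 β :=
    ⟨_, (Nat.sub_add_cancel (npairs_le two_pos hβ.injective)).symm⟩
  obtain ⟨z₀, hz, hz1, hz2, hPc⟩ := defect_structure hM le_rfl hBB hβ hs hψ hψβ hw hP
  -- membership in `D`
  have hmem : ∀ x : H, x ∈ D ↔ ((π x : alternatingGroup (Fin n)) : Equiv.Perm (Fin n)) ∈
      P ⊓ alternatingGroup (Fin n) := by
    intro x
    have e1 : π x ∈ D.map π ↔ x ∈ D := by
      constructor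
      · rintro ⟨y, hy, hxy⟩
        have e2 : y⁻¹ * x ∈ π.ker := by
          rw [MonoidHom.mem_ker, map_mul, map_inv, hxy, inv_mul_cancel]
        have e3 := D.mul_mem hy (hkerD e2)
        rwa [mul_inv_cancel_left] at e3
      · exact fun hx => ⟨x, hx, rfl⟩
    rw [← e1, hDP, Subgroup.mem_subgroupOf]
  -- the order of `D`
  have hcardD : Nat.card D = 2 * Nat.card (P ⊓ alternatingGroup (Fin n) : Subgroup (Equiv.Perm (Fin n))) := by
    let g : D →* (P ⊓ alternatingGroup (Fin n) : Subgroup (Equiv.Perm (Fin n))) :=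
      ((alternatingGroup (Fin n)).subtype.comp (π.comp D.subtype)).codRestrict _ fun x => (hmem x).1 x.2
    have hg : Function.Surjective g := by
      rintro ⟨y, hy⟩
      obtain ⟨x, hx⟩ := h.surj ⟨y, hy.2⟩
      refine ⟨⟨x, (hmem x).2 (by rw [hx]; exact hy)⟩, Subtype.ext ?_⟩
      change ((π x : alternatingGroup (Fin n)) : Equiv.Perm (Fin n)) = y
      rw [hx]
    have h1 := g.ker.card_mul_index
    rw [Subgroup.index_ker, MonoidHom.range_eq_top.2 hg, Subgroup.card_top] at h1
    have h2 : Nat.card g.ker = 2 := by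
      have e1 : ∀ x : D, x ∈ g.ker ↔ (x : H) = 1 ∨ (x : H) = z := by
        intro x
        rw [← h.ker]
        constructor
        · intro hx
          have h0 : g x = 1 := hx
          have h0' : ((g x : (P ⊓ alternatingGroup (Fin n) : Subgroup (Equiv.Perm (Fin n)))) :
              Equiv.Perm (Fin n)) = 1 := by rw [h0]; rfl
          exact Subtype.ext h0'
        · intro hx
          change g x = 1
          apply Subtype.ext
          change ((π x : alternatingGroup (Fin n)) : Equiv.Perm (Fin n)) = 1
          rw [hx]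
          rfl
      have e2 : g.ker = Subgroup.zpowers (⟨z, hzD⟩ : D) := by
        ext x
        rw [e1]
        constructor
        · rintro (hx | hx)
          · rw [show x = 1 from Subtype.ext hx]; exact one_mem _
          · rw [show x = ⟨z, hzD⟩ from Subtype.ext hx]; exact Subgroup.mem_zpowers _
        · rintro ⟨k, rfl⟩
          rcases Int.even_or_odd' k with ⟨m, rfl | rfl⟩
          · left
            change ((⟨z, hzD⟩ : D) ^ (2 * m) : D).1 = 1
            rw [zpow_mul, zpow_ofNat, pow_two, SubgroupClass.coe_zpow]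
            change (z * z) ^ m = 1
            rw [h.z_mul, one_zpow]
          · right
            change ((⟨z, hzD⟩ : D) ^ (2 * m + 1) : D).1 = z
            rw [zpow_add, zpow_mul, zpow_ofNat, pow_two, zpow_one, Subgroup.coe_mul, SubgroupClass.coe_zpow]
            change (z * z) ^ m * z = z
            rw [h.z_mul, one_zpow, one_mul]
      rw [e2, Nat.card_zpowers]
      refine orderOf_eq_prime (Subtype.ext ?_) fun h0 => h.z_ne (congrArg Subtype.val h0)
      change z ^ 2 = 1
      rw [pow_two, h.z_mul]
    rw [h2] at h1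
    exact h1.symm
  rcases Nat.lt_or_ge w 2 with hw2 | hw2
  · -- small weight
    have h1 : Nat.card (P ⊓ alternatingGroup (Fin n) : Subgroup (Equiv.Perm (Fin n))) = 1 := by
      rcases Nat.eq_zero_or_pos w with rfl | hw0
      · have h1 : Nat.card P = 1 := by rw [hPc]; simp
        have h2 := Subgroup.card_dvd_of_le
          (inf_le_left : (P ⊓ alternatingGroup (Fin n) : Subgroup (Equiv.Perm (Fin n))) ≤ P)
        rwa [h1, Nat.dvd_one] at h2
      · obtain ⟨c, hc, hcs⟩ := exists_odd_cyc hz hw0
        have h1 := card_inf_alternating (hz1 hc) hcs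
        have hw1 : w = 1 := by omega
        have hv : padicValNat 2 (Nat.factorial 1) = 0 := by simp
        rw [hPc, hw1, hv, add_zero, pow_one] at h1
        omega
    exact concl_small hM hB hD (d := 1) (by rw [hcardD, h1]; rfl) (by norm_num) hχ
  · obtain ⟨c, hc, hcs⟩ := exists_odd_cyc hz (by omega)
    have h1 := card_inf_alternating (hz1 hc) hcs
    refine concl_center hM hB hD (d := w + padicValNat 2 w.factorial) (by rw [hcardD, ← h1, hPc]) (by omega) ?_ hχ
    -- the centre
    obtain ⟨e, he, hez⟩ := h.exists_model hn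
    have key : ∀ x : D, x ∈ Subgroup.center D → (x : H) = 1 ∨ (x : H) = z := by
      intro x hx
      have hp : ∀ u : H, proj n ((e u : model n) : cover n) = ((π u : alternatingGroup (Fin n)) : Equiv.Perm (Fin n)) := by
        intro u
        rw [← he, coe_mproj]
      have hcom : ∀ y : cover n, proj n y ∈ P ⊓ alternatingGroup (Fin n) →
          ((e x : model n) : cover n) * y = y * ((e x : model n) : cover n) := by
        intro y hy
        -- `y` comes from `D`
        obtain ⟨u, hu⟩ := e.surjective ⟨y, hy.2⟩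
        have hu' : ((e u : model n) : cover n) = y := by rw [hu]
        have huD : u ∈ D := (hmem u).2 (by rw [← hp, hu']; exact hy)
        have h3 := Subgroup.mem_center_iff.1 hx ⟨u, huD⟩
        have h4 : u * (x : H) = x * u := congrArg Subtype.val h3
        rw [← hu', ← Subgroup.coe_mul, ← Subgroup.coe_mul, ← map_mul, ← map_mul, h4]
      rcases center_two hz hw2 hz1 hz2 hPc (x := ((e x : model n) : cover n)) (by rw [hp]; exact (hmem x).1 x.2)
        hcom with h2 | h2
      · left
        have h3 : e (x : H) = 1 := Subtype.ext h2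
        exact (map_eq_one_iff e e.injective).1 h3
      · right
        have h3 : e (x : H) = e z := by rw [hez]; exact Subtype.ext h2
        exact e.injective h3
    have hzc : (⟨z, hzD⟩ : D) ∈ Subgroup.center D := by
      rw [Subgroup.mem_center_iff]
      intro y
      exact Subtype.ext (h.z_comm y)
    have e2 : Subgroup.center D = Subgroup.zpowers (⟨z, hzD⟩ : D) := by
      apply le_antisymm
      · intro x hx
        rcases key x hx with h5 | h5
        · rw [show x = 1 from Subtype.ext h5]; exact one_mem _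
        · rw [show x = ⟨z, hzD⟩ from Subtype.ext h5]; exact Subgroup.mem_zpowers _
      · rw [Subgroup.zpowers_le]
        exact hzc
    rw [e2, Nat.card_zpowers]
    refine orderOf_eq_prime (Subtype.ext ?_) fun h0 => h.z_ne (congrArg Subtype.val h0)
    change z ^ 2 = 1
    rw [pow_two, h.z_mul]

end Cfsg.Agent.H852.Spin
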